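/-
helper24: pieces CARDB (`g2s_card_scal`) and CARDD (`g2s_card_ker`) of CALL S4632 (helper95).
-/
import Mathlib
import Cfsg.Agent.Helper95.G2SylDefs
import Cfsg.Agent.Helper5.SLCard

set_option autoImplicit false

namespace Cfsg.Agent.Helper24

open Matrix Cfsg.Agent.Helper95.G2Syl

variable {F : Type*} [Field F]

/-- the scalar embedding `t ↦ diag(t, t)` as a group homomorphism -/
def g2sScal (F : Type*) [Field F] : Fˣ →* GL (Fin 2) F where
  toFun t := gdiag t t
  map_one' := by
    apply Units.ext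
    rw [gdiag_coe]
    ext i j
    fin_cases i <;> fin_cases j <;> simp
  map_mul' x y := by
    apply Units.ext
    rw [Units.val_mul, gdiag_coe, gdiag_coe, gdiag_coe]
    ext i j
    fin_cases i <;> fin_cases j <;> simp [Matrix.mul_apply, Fin.sum_univ_succ]

theorem g2sScal_injective : Function.Injective (g2sScal F) := by
  intro x y h
  have h1 : ((gdiag x x : GL (Fin 2) F) : Matrix (Fin 2) (Fin 2) F) 0 0 =
      ((gdiag y y : GL (Fin 2) F) : Matrix (Fin 2) (Fin 2) F) 0 0 := by
    have h2 : (gdiag x x : GL (Fin 2) F) = gdiag y y := h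
    rw [h2]
  rw [gdiag_coe, gdiag_coe] at h1
  apply Units.ext
  simpa using h1

/-- a `2`-subgroup of `Fˣ` has order at most the `2`-part of `q - 1` -/
theorem g2s_card_two_sub [Fintype F] (Z : Subgroup Fˣ) (hZ : IsPGroup 2 Z) :
    Nat.card Z ≤ 2 ^ padicValNat 2 (Fintype.card F - 1) := by
  obtain ⟨n, hn⟩ := IsPGroup.iff_card.mp hZ
  have h1 : Nat.card Z ∣ Nat.card Fˣ := Subgroup.card_subgroup_dvd_card Z
  have h2 : Nat.card Fˣ = Fintype.card F - 1 := by
    rw [Nat.card_units, Nat.card_eq_fintype_card]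
  rw [hn, h2] at h1
  have h3 : Fintype.card F - 1 ≠ 0 := by
    have := Fintype.one_lt_card (α := F)
    omega
  rw [hn]
  exact Nat.pow_le_pow_right (by norm_num) ((padicValNat_dvd_iff_le h3).mp h1)

/-- **PIECE CARDB** of CALL S4632. -/
theorem g2s_card_scal [Fintype F] (D : Subgroup (GL (Fin 2) F)) (hD : IsPGroup 2 D) :
    Nat.card {t : Fˣ // gdiag t t ∈ D} ≤ 2 ^ padicValNat 2 (Fintype.card F - 1) := by
  have hZ : IsPGroup 2 (D.comap (g2sScal F)) :=
    hD.comap_of_injective (g2sScal F) g2sScal_injective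
  have h := g2s_card_two_sub (D.comap (g2sScal F)) hZ
  have e : Nat.card {t : Fˣ // gdiag t t ∈ D} = Nat.card (D.comap (g2sScal F)) :=
    Nat.card_congr (Equiv.subtypeEquivRight (fun t => Iff.rfl))
  rw [e]
  exact h

/-- **PIECE CARDD** of CALL S4632. -/
theorem g2s_card_ker [Fintype F] (D : Subgroup (GL (Fin 2) F)) (hD : IsPGroup 2 D) :
    Nat.card D ≤ Nat.card (D.comap Matrix.SpecialLinearGroup.toGL) *
      2 ^ padicValNat 2 (Fintype.card F - 1) := by
  classical
  obtain ⟨f, hf⟩ : ∃ f : ↥D →* Fˣ, f = (Matrix.GeneralLinearGroup.det).comp D.subtype :=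
    ⟨_, rfl⟩
  have hfe : ∀ d : ↥D, f d = Matrix.GeneralLinearGroup.det (d : GL (Fin 2) F) := by
    intro d
    rw [hf]
    rfl
  have h1 : Nat.card f.ker * Nat.card f.range = Nat.card D := by
    rw [← Subgroup.index_ker]
    exact Subgroup.card_mul_index f.ker
  have h2 : IsPGroup 2 f.range := by
    have := IsPGroup.of_surjective hD f.rangeRestrict f.rangeRestrict_surjective
    exact this
  have h3 : Nat.card f.range ≤ 2 ^ padicValNat 2 (Fintype.card F - 1) :=
    g2s_card_two_sub f.range h2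
  have hx : ∀ x : f.ker, ∃ s : Matrix.SpecialLinearGroup (Fin 2) F,
      Matrix.SpecialLinearGroup.toGL s = ((x : ↥D) : GL (Fin 2) F) := by
    intro x
    have h4 : ((x : ↥D) : GL (Fin 2) F) ∈
        (Matrix.GeneralLinearGroup.det : GL (Fin 2) F →* Fˣ).ker := by
      rw [MonoidHom.mem_ker]
      have h5 : f (x : ↥D) = 1 := MonoidHom.mem_ker.mp x.2
      rw [← hfe]
      exact h5
    rw [← Cfsg.Agent.Helper5.toGL_range_eq_ker_det] at h4
    exact h4
  have h4 : Nat.card f.ker ≤ Nat.card (D.comap Matrix.SpecialLinearGroup.toGL) := by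
    refine Nat.card_le_card_of_injective
      (fun x => (⟨Classical.choose (hx x), by
        rw [Subgroup.mem_comap, Classical.choose_spec (hx x)]
        exact (x : ↥D).2⟩ : ↥(D.comap Matrix.SpecialLinearGroup.toGL))) ?_
    intro x y hxy
    have h5 : Classical.choose (hx x) = Classical.choose (hx y) := congrArg Subtype.val hxy
    have h6 : ((x : ↥D) : GL (Fin 2) F) = ((y : ↥D) : GL (Fin 2) F) := by
      rw [← Classical.choose_spec (hx x), ← Classical.choose_spec (hx y), h5]
    exact Subtype.ext (Subtype.ext h6)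
  calc Nat.card D = Nat.card f.ker * Nat.card f.range := h1.symm
    _ ≤ Nat.card (D.comap Matrix.SpecialLinearGroup.toGL) *
          2 ^ padicValNat 2 (Fintype.card F - 1) := Nat.mul_le_mul h4 h3

end Cfsg.Agent.Helper24
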