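import Cfsg.Agent.Helper55.N9Defs

set_option autoImplicit false

namespace Cfsg.Agent.Helper24.N9

open Subgroup Cfsg.Agent.Helper55.N9

variable {G : Type*} [Group G] [Finite G]

/-- T4 (double): the averaging trick. -/
theorem n9_norm_trick (Y K : Subgroup G) (hY : IsPGroup 2 Y) (hK : Odd (Nat.card K))
    (hinv : K ≤ normalizer (Y : Set G)) (hno : NoIdx2 K Y)
    (v : G) (hv : v ∈ Y) (hvK : v ∈ centralizer (K : Set G))
    (M : Subgroup G) (hM : M ≤ Y) (hidx : M.relIndex Y = 2) : v ∈ M := by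
  classical
  by_contra hvM
  haveI : Fintype ↥K := Fintype.ofFinite _
  obtain ⟨φ, hφdef⟩ : ∃ φ : G → ZMod 2, φ = fun g => if g ∈ M then 0 else 1 := ⟨_, rfl⟩
  have h11 : (1 : ZMod 2) + 1 = 0 := by decide
  have hφmul : ∀ a ∈ Y, ∀ b ∈ Y, φ (a * b) = φ a + φ b := by
    intro a ha b hb
    have h := Subgroup.mul_mem_iff_of_index_two (H := M.subgroupOf Y) hidx
      (a := ⟨a, ha⟩) (b := ⟨b, hb⟩)
    simp only [Subgroup.mem_subgroupOf, Subgroup.coe_mul] at h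
    rw [hφdef]
    by_cases h1 : a ∈ M <;> by_cases h2 : b ∈ M <;> simp [h1, h2, h, h11]
  have hconjY : ∀ k ∈ K, ∀ y ∈ Y, k * y * k⁻¹ ∈ Y := fun k hk y hy =>
    (Subgroup.mem_normalizer_iff.mp (hinv hk) y).mp hy
  obtain ⟨ψ, hψdef⟩ : ∃ ψ : G → ZMod 2, ψ = fun y => ∑ k : ↥K, φ ((k : G) * y * (k : G)⁻¹) :=
    ⟨_, rfl⟩
  have hψmul : ∀ a ∈ Y, ∀ b ∈ Y, ψ (a * b) = ψ a + ψ b := by
    intro a ha b hb
    rw [hψdef]
    simp only
    rw [← Finset.sum_add_distrib]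
    refine Finset.sum_congr rfl (fun k _ => ?_)
    rw [← hφmul _ (hconjY k k.2 a ha) _ (hconjY k k.2 b hb)]
    congr 1
    group
  have hψinv : ∀ k₀ ∈ K, ∀ y : G, ψ (k₀ * y * k₀⁻¹) = ψ y := by
    intro k₀ hk₀ y
    rw [hψdef]
    simp only
    rw [← Equiv.sum_comp (Equiv.mulRight (⟨k₀, hk₀⟩ : ↥K))
      (fun k : ↥K => φ ((k : G) * y * (k : G)⁻¹))]
    refine Finset.sum_congr rfl (fun k _ => ?_)
    congr 1
    simp only [Equiv.coe_mulRight, Subgroup.coe_mul]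
    group
  have hψv : ψ v = 1 := by
    rw [hψdef]
    simp only
    have h1 : ∀ k : ↥K, φ ((k : G) * v * (k : G)⁻¹) = 1 := by
      intro k
      have hc : (k : G) * v = v * (k : G) := (Subgroup.mem_centralizer_iff.mp hvK (k : G) k.2)
      have h2 : (k : G) * v * (k : G)⁻¹ = v := by rw [hc]; group
      rw [h2, hφdef]
      simp [hvM]
    rw [Finset.sum_congr rfl (fun k _ => h1 k)]
    rw [Finset.sum_const, Finset.card_univ, nsmul_eq_mul, mul_one, ← Nat.card_eq_fintype_card]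
    obtain ⟨m, hm⟩ := hK
    rw [hm]
    push_cast
    have h2 : (2 : ZMod 2) = 0 := by decide
    rw [h2]
    simp
  have hψ1 : ψ 1 = 0 := by
    have h := hψmul 1 Y.one_mem 1 Y.one_mem
    rw [mul_one] at h
    exact (add_eq_left.mp h.symm)
  have hcases : ∀ z : ZMod 2, z = 0 ∨ z = 1 := by decide
  let M' : Subgroup G :=
    { carrier := {y | y ∈ Y ∧ ψ y = 0}
      one_mem' := ⟨Y.one_mem, hψ1⟩
      mul_mem' := by
        rintro a b ⟨ha, ha0⟩ ⟨hb, hb0⟩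
        refine ⟨Y.mul_mem ha hb, ?_⟩
        rw [hψmul a ha b hb, ha0, hb0, add_zero]
      inv_mem' := by
        rintro a ⟨ha, ha0⟩
        refine ⟨Y.inv_mem ha, ?_⟩
        have h := hψmul a ha a⁻¹ (Y.inv_mem ha)
        rw [mul_inv_cancel, hψ1, ha0, zero_add] at h
        exact h.symm }
  have hM'mem : ∀ y : G, y ∈ M' ↔ y ∈ Y ∧ ψ y = 0 := fun y => Iff.rfl
  have hM'Y : M' ≤ Y := fun y hy => hy.1
  have hM'idx : M'.relIndex Y = 2 := by
    rw [Subgroup.relIndex_eq_two_iff]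
    refine ⟨v, hv, fun b hb => ?_⟩
    have hbv : ψ (b * v) = ψ b + 1 := by rw [hψmul b hb v hv, hψv]
    rw [hM'mem, hM'mem, hbv]
    rcases hcases (ψ b) with h0 | h1
    · right
      refine ⟨⟨hb, h0⟩, ?_⟩
      rintro ⟨-, h⟩
      rw [h0, zero_add] at h
      exact one_ne_zero h
    · left
      refine ⟨⟨Y.mul_mem hb hv, by rw [h1]; exact h11⟩, ?_⟩
      rintro ⟨-, h⟩
      rw [h1] at h
      exact one_ne_zero h
  have hM'K : K ≤ normalizer (M' : Set G) := by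
    intro k₀ hk₀
    rw [Subgroup.mem_normalizer_iff]
    intro y
    have hn := Subgroup.mem_normalizer_iff.mp (hinv hk₀) y
    constructor
    · rintro ⟨hy, hy0⟩
      exact ⟨hn.mp hy, by rw [hψinv k₀ hk₀ y]; exact hy0⟩
    · rintro ⟨hy, hy0⟩
      exact ⟨hn.mpr hy, by rw [← hψinv k₀ hk₀ y]; exact hy0⟩
  exact hno M' hM'Y hM'idx hM'K

end Cfsg.Agent.Helper24.N9
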